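import Cfsg.Agent.Lib.PermComp.Mathieu.Bridge
import Cfsg.Agent.Lib.PermComp.Mathieu.CertM23
import Cfsg.Agent.Lib.Golay.OutGroups
import Cfsg.Agent.Lib.M24Data.Tree
import Cfsg.Prelude.Def_Spor_Mathieu

/-!
# Generating triples of the stabiliser of a point in the group of the length-24 code
-/

set_option autoImplicit false
set_option linter.unusedSectionVars false
set_option linter.unusedVariables false
set_option linter.style.longLine false
set_option linter.unnecessarySimpa false
set_option linter.style.haveILetI false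

namespace Cfsg.Agent.Lib.M23Triples.Wit

open Cfsg Cfsg.Agent.Lib.Golay.Core Cfsg.Agent.Lib.Golay.Perm Cfsg.Agent.Lib.M24Data.Tree
  Cfsg.Agent.Lib.PermComp Cfsg.Agent.Lib.PermComp.G24 Cfsg.Agent.Lib.PermComp.Mathieu.Bridge
  Cfsg.Agent.Lib.PermComp.Mathieu.CertM23

/-- The property to be shown. -/
def WitP (p q r : ℕ) : Prop :=
  ∃ x y z : Cfsg.Spor.M23, orderOf x = p ∧ orderOf y = q ∧ orderOf z = r ∧ x * y * z = 1 ∧
    Subgroup.closure {x, y} = ⊤

/-- The test for the identity. -/
def idB (y : ℕ) : Bool := allUpTo (fun i => Nat.beq (img y i) i) 24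

/-- Force the evaluation of a number. -/
def forceN (n : ℕ) : ℕ := Nat.rec 0 (fun m _ => Nat.succ m) n

theorem forceN_eq (n : ℕ) : forceN n = n := by
  cases n <;> rfl

/-- Powers. -/
def powP (P : ℕ) (n : ℕ) : ℕ := Nat.rec idP (fun _ ih => forceN (comp ih P)) n

theorem powP_succ (P n : ℕ) : powP P (n + 1) = comp (powP P n) P := by
  show forceN (comp (powP P n) P) = _
  rw [forceN_eq]

theorem idP_eq : g idP = 1 := by
  ext1 p
  have key : ∀ i < 24, img idP i = i := by decide +kernel
  rw [g_apply good_idP.1, key _ (idx_lt p), pt_idx]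
  rfl

theorem valid_powP {P : ℕ} (h : validPerm P = true) (n : ℕ) : validPerm (powP P n) = true := by
  induction n with
  | zero => exact good_idP.1
  | succ n ih =>
    rw [powP_succ]
    exact valid_comp ih h

theorem g_powP {P : ℕ} (h : validPerm P = true) (n : ℕ) : g (powP P n) = g P ^ n := by
  induction n with
  | zero => exact idP_eq
  | succ n ih =>
    rw [powP_succ, g_comp (valid_powP h n) h, ih, pow_succ]

theorem g_of_idB {y : ℕ} (hy : validPerm y = true) (h : idB y = true) : g y = 1 := by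
  ext1 p
  have h1 := Nat.eq_of_beq_eq_true (allUpTo_iff.mp h _ (idx_lt p))
  rw [g_apply hy, h1, pt_idx]
  rfl

theorem idB_of_g {y : ℕ} (hy : validPerm y = true) (h : g y = 1) : idB y = true := by
  apply allUpTo_iff.mpr
  intro i hi
  have e := congrArg (fun f : Equiv.Perm GolayPt => f (pt i)) h
  simp only [g_pt hy hi, Equiv.Perm.one_apply] at e
  rw [pt_injOn (valid_img_lt hy hi) hi e]
  exact Nat.beq_refl _

/-- All tests on a pair. -/
def tripleOK (p q r X Y : ℕ) : Bool :=
  checkAut X && checkAut Y && Nat.beq (img X 23) 23 && Nat.beq (img Y 23) 23 &&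
    idB (powP X p) && !(idB X) && idB (powP Y q) && !(idB Y) &&
    idB (powP (comp X Y) r) && !(idB (comp X Y))

theorem rep_g {c : ℕ} (hv : validPerm c = true) : Mathieu.Bridge.Rep24 c (g c) := by
  intro a
  have h1 := idx_g hv a
  show Core.app 5 31 c (e24 a) = e24 (g c a)
  rw [val_e24, val_e24, h1]
  rfl

theorem pt23 : pt 23 = (none : GolayPt) := by
  decide

theorem mem_M23 {X : ℕ} (h1 : checkAut X = true) (h2 : img X 23 = 23) : g X ∈ Cfsg.Spor.M23 := by
  refine ⟨g_mem_M24 h1, ?_⟩
  show g X • (none : GolayPt) = none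
  rw [Equiv.Perm.smul_def, ← pt23, g_pt (checkAut_valid h1) (by norm_num), h2]

theorem Rep24_unique {c : ℕ} {f f' : Equiv.Perm GolayPt} (h : Mathieu.Bridge.Rep24 c f) (h' : Mathieu.Bridge.Rep24 c f') : f = f' := by
  ext1 a
  apply e24.injective
  apply Fin.ext
  rw [← h a, ← h' a]

/-- The generic witness. -/
theorem wit_of {p q r X Y : ℕ} {prog : List (ℕ × ℕ × ℕ)} {ls : List Core.Lev} (hp : p.Prime) (hq : q.Prime)
    (hr : r.Prime)
    (h1 : Core.checkAll m23_n m23_w m23_mask m23_L m23_maskL m23_idc [X, Y] prog ls = true)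
    (h2 : Core.orderC ls = 10200960) (h3 : tripleOK p q r X Y = true) : WitP p q r := by
  simp only [tripleOK, Bool.and_eq_true, Bool.not_eq_eq_eq_not, Bool.not_true] at h3
  obtain ⟨⟨⟨⟨⟨⟨⟨⟨⟨hXa, hYa⟩, hX23⟩, hY23⟩, hXp⟩, hX1⟩, hYq⟩, hY1⟩, hZr⟩, hZ1⟩ := h3
  have hvX := checkAut_valid hXa
  have hvY := checkAut_valid hYa
  have hvZ := valid_comp hvX hvY
  have hX23' := Nat.eq_of_beq_eq_true hX23
  have hY23' := Nat.eq_of_beq_eq_true hY23
  let x : Cfsg.Spor.M23 := ⟨g X, mem_M23 hXa hX23'⟩
  let y : Cfsg.Spor.M23 := ⟨g Y, mem_M23 hYa hY23'⟩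
  have hxv : (x : Equiv.Perm GolayPt) = g X := rfl
  have hyv : (y : Equiv.Perm GolayPt) = g Y := rfl
  haveI : Fact p.Prime := ⟨hp⟩
  haveI : Fact q.Prime := ⟨hq⟩
  haveI : Fact r.Prime := ⟨hr⟩
  have ox : orderOf x = p := by
    apply orderOf_eq_prime
    · apply Subtype.ext
      show g X ^ p = 1
      rw [← g_powP hvX]
      exact g_of_idB (valid_powP hvX p) hXp
    · intro h
      have : g X = 1 := congrArg Subtype.val h
      have := idB_of_g hvX this
      rw [hX1] at this
      exact absurd this (by simp)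
  have oy : orderOf y = q := by
    apply orderOf_eq_prime
    · apply Subtype.ext
      show g Y ^ q = 1
      rw [← g_powP hvY]
      exact g_of_idB (valid_powP hvY q) hYq
    · intro h
      have : g Y = 1 := congrArg Subtype.val h
      have := idB_of_g hvY this
      rw [hY1] at this
      exact absurd this (by simp)
  have oz : orderOf (x * y) = r := by
    apply orderOf_eq_prime
    · apply Subtype.ext
      show (g X * g Y) ^ r = 1
      rw [← g_comp hvX hvY, ← g_powP hvZ]
      exact g_of_idB (valid_powP hvZ r) hZr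
    · intro h
      have : g X * g Y = 1 := congrArg Subtype.val h
      rw [← g_comp hvX hvY] at this
      have := idB_of_g hvZ this
      rw [hZ1] at this
      exact absurd this (by simp)
  refine ⟨x, y, (x * y)⁻¹, ox, oy, by rw [orderOf_inv]; exact oz, mul_inv_cancel _, ?_⟩
  have hall : allAut [X, Y] = true := by
    simp [allAut, hXa, hYa]
  have h5 : Nat.card (Core.H 5 31 e24 [X, Y]) = 10200960 := by
    obtain ⟨-, -, -, -, -, h⟩ := Core.main_of_checkAll (e := e24) (exists_rep24_of_all hall) h1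
    exact h.trans h2
  have h6 : Core.H 5 31 e24 [X, Y] = Subgroup.closure ({g X, g Y} : Set (Equiv.Perm GolayPt)) := by
    apply Core.H_eq_closure
    · intro c hc
      simp only [List.mem_cons, List.not_mem_nil, or_false] at hc
      rcases hc with rfl | rfl
      · exact ⟨_, Or.inl rfl, rep_g hvX⟩
      · exact ⟨_, Or.inr rfl, rep_g hvY⟩
    · rintro f (rfl | rfl)
      · exact ⟨X, by simp, rep_g hvX⟩
      · exact ⟨Y, by simp, rep_g hvY⟩
  have h7 : (Subgroup.closure ({x, y} : Set Cfsg.Spor.M23)).map Cfsg.Spor.M23.subtype =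
      Subgroup.closure ({g X, g Y} : Set (Equiv.Perm GolayPt)) := by
    rw [MonoidHom.map_closure, Set.image_pair]
    rfl
  apply Subgroup.eq_top_of_card_eq
  rw [← Subgroup.card_map_of_injective (f := Cfsg.Spor.M23.subtype) Cfsg.Spor.M23.subtype_injective, h7, ← h6, h5,
    Cfsg.Agent.Lib.Golay.OutGroups.card_M23]

end Cfsg.Agent.Lib.M23Triples.Wit
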