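import Cfsg.Agent.Lib.Ree.Basic
import Cfsg.Agent.Lib.M24Data.Classes
import Cfsg.Agent.Lib.M24Orb.Index276
import Cfsg.Agent.Lib.PermComp.Mathieu.Simple2x
import Cfsg.Agent.Lib.M23Triples.Wit

/-!
# Triples that cannot generate, by Ree's inequality
-/

set_option autoImplicit false
set_option linter.unusedSectionVars false
set_option linter.unusedVariables false
set_option linter.style.longLine false
set_option linter.unnecessarySimpa false
set_option linter.style.haveILetI false

namespace Cfsg.Agent.Lib.M23Triples.Neg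

open Cfsg Cfsg.Agent.Lib.Golay.Core Cfsg.Agent.Lib.Golay.Perm Cfsg.Agent.Lib.Golay.M24
  Cfsg.Agent.Lib.Ree.Basic Cfsg.Agent.Lib.M24Orb.Index276 Cfsg.Agent.Lib.M24Data.Classes
  Cfsg.Agent.Lib.M23Triples.Wit

open scoped Classical

abbrev GM := ↥Cfsg.Spor.M23

theorem fix_none (g : GM) : g.1 none = none := g.2.2

/-- The twenty-three points. -/
def S23 : SubMulAction GM GolayPt where
  carrier := {p | p ≠ none}
  smul_mem' := by
    intro g p hp h
    apply hp
    have e : g.1 p = none := h
    rw [← fix_none g] at e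
    exact g.1.injective e

theorem mem_S23 {p : GolayPt} : p ∈ S23 ↔ p ≠ none := Iff.rfl

theorem smul_val (g : GM) (a : ↥S23) : ((g • a : ↥S23) : GolayPt) = g.1 a.1 := rfl

noncomputable instance : Fintype ↥S23 := Fintype.ofFinite _

theorem card_S23 : Fintype.card ↥S23 = 23 := by
  have h1 : Fintype.card ↥S23 = (Finset.univ.erase (none : GolayPt)).card := by
    rw [← Fintype.card_coe]
    apply Fintype.card_congr
    exact
      { toFun := fun a => ⟨a.1, Finset.mem_erase.2 ⟨a.2, Finset.mem_univ _⟩⟩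
        invFun := fun a => ⟨a.1, (Finset.mem_erase.1 a.2).1⟩
        left_inv := fun _ => rfl
        right_inv := fun _ => rfl }
  rw [h1, Finset.card_erase_of_mem (Finset.mem_univ _), Finset.card_univ, card_golayPt]

/-- Transitivity on the twenty-three points. -/
theorem exists_map (a b : ↥S23) : ∃ g : GM, g • a = b := by
  obtain ⟨g, h1, h2⟩ := Cfsg.Agent.Lib.PermComp.Mathieu.Simple2x.exists_two
    (a := none) (b := a.1) (c := none) (d := b.1) (Ne.symm a.2) (Ne.symm b.2)
  refine ⟨⟨g.1, g.2, h1⟩, Subtype.ext h2⟩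

/-- The fixed points. -/
theorem card_fix_eq (g : GM) :
    (Finset.univ.filter fun a : ↥S23 => g • a = a).card + 1 =
      (Finset.univ.filter fun p : GolayPt => g.1 p = p).card := by
  have hmem : (none : GolayPt) ∈ Finset.univ.filter fun p : GolayPt => g.1 p = p := by
    simp [fix_none g]
  have e : (Finset.univ.filter fun a : ↥S23 => g • a = a).card =
      ((Finset.univ.filter fun p : GolayPt => g.1 p = p).erase none).card := by
    apply Finset.card_bij (fun a _ => a.1)
    · intro a ha
      simp only [Finset.mem_filter, Finset.mem_univ, true_and] at ha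
      rw [Finset.mem_erase]
      refine ⟨a.2, ?_⟩
      simp only [Finset.mem_filter, Finset.mem_univ, true_and]
      exact congrArg Subtype.val ha
    · intro a _ b _ h
      exact Subtype.ext h
    · intro p hp
      rw [Finset.mem_erase] at hp
      simp only [Finset.mem_filter, Finset.mem_univ, true_and] at hp
      exact ⟨⟨p, hp.1⟩, by
        simp only [Finset.mem_filter, Finset.mem_univ, true_and]
        exact Subtype.ext hp.2, rfl⟩
  rw [e, Finset.card_erase_add_one hmem]

/-- The rank bound in terms of the fixed points. -/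
theorem rk_of (g : GM) {p f : ℕ} (hp : p.Prime) (hg : orderOf g = p)
    (hf : (Finset.univ.filter fun q : GolayPt => g.1 q = q).card = f) :
    ∃ c, c * p = 23 + (p - 1) * (f - 1) ∧ rk ↥S23 g + c ≤ 23 := by
  have h1 := card_fix_eq g
  rw [hf] at h1
  letI : Fintype (MulAction.orbitRel.Quotient (Subgroup.zpowers g) ↥S23) := Fintype.ofFinite _
  refine ⟨Fintype.card (MulAction.orbitRel.Quotient (Subgroup.zpowers g) ↥S23), ?_, ?_⟩
  · have h2 := orbits_formula (α := ↥S23) g hp hg (f - 1) (by omega)
    rw [card_S23] at h2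
    exact h2
  · have h2 := rk_add_orbits (α := ↥S23) g
    rw [card_S23] at h2
    exact h2

theorem ne_one_of (g : GM) {p : ℕ} (hp : p.Prime) (hg : orderOf g = p) : g.1 ≠ 1 := by
  intro h
  have : g = 1 := Subtype.ext h
  rw [this, orderOf_one] at hg
  exact hp.one_lt.ne hg

theorem pow_of (g : GM) {p : ℕ} (hg : orderOf g = p) : g.1 ^ p = 1 := by
  have := pow_orderOf_eq_one g
  rw [hg] at this
  exact congrArg Subtype.val this

theorem fix_pos (g : GM) : 1 ≤ (Finset.univ.filter fun q : GolayPt => g.1 q = q).card := by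
  have := card_fix_eq g
  omega

theorem rk2 (g : GM) (hg : orderOf g = 2) : rk ↥S23 g ≤ 8 := by
  have h0 := fix_pos g
  have hf : (Finset.univ.filter fun q : GolayPt => g.1 q = q).card = 8 := by
    rcases class2 g.2.1 (pow_of g hg) (ne_one_of g Nat.prime_two hg) with h | h
    · exact h.1
    · rw [h.1] at h0
      omega
  obtain ⟨c, h1, h2⟩ := rk_of g Nat.prime_two hg hf
  omega

theorem rk3 (g : GM) (hg : orderOf g = 3) : rk ↥S23 g ≤ 12 := by
  have h0 := fix_pos g
  have hf : (Finset.univ.filter fun q : GolayPt => g.1 q = q).card = 6 := by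
    rcases class3 g.2.1 (pow_of g hg) (ne_one_of g Nat.prime_three hg) with h | h
    · exact h.1
    · rw [h.1] at h0
      omega
  obtain ⟨c, h1, h2⟩ := rk_of g Nat.prime_three hg hf
  omega

theorem rk_big (g : GM) {p : ℕ} (hp : p.Prime) (hp48 : ¬ p ∣ 48) (hg : orderOf g = p) :
    (Finset.univ.filter fun q : GolayPt => g.1 q = q).card < 5 ∧
      24 % p = (Finset.univ.filter fun q : GolayPt => g.1 q = q).card % p := by
  haveI : Fact p.Prime := ⟨hp⟩
  exact ⟨card_fixS_le g.2.1 hp hp48 (ne_one_of g hp hg) (pow_of g hg),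
    card_fixS_modEq g.1 p (pow_of g hg)⟩

theorem rk5 (g : GM) (hg : orderOf g = 5) : rk ↥S23 g ≤ 16 := by
  have hp : Nat.Prime 5 := by norm_num
  obtain ⟨h1, h2⟩ := rk_big g hp (by norm_num) hg
  have hf : (Finset.univ.filter fun q : GolayPt => g.1 q = q).card = 4 := by omega
  obtain ⟨c, h3, h4⟩ := rk_of g hp hg hf
  omega

theorem rk7 (g : GM) (hg : orderOf g = 7) : rk ↥S23 g ≤ 18 := by
  have hp : Nat.Prime 7 := by norm_num
  obtain ⟨h1, h2⟩ := rk_big g hp (by norm_num) hg
  have hf : (Finset.univ.filter fun q : GolayPt => g.1 q = q).card = 3 := by omega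
  obtain ⟨c, h3, h4⟩ := rk_of g hp hg hf
  omega

theorem rk11 (g : GM) (hg : orderOf g = 11) : rk ↥S23 g ≤ 20 := by
  have hp : Nat.Prime 11 := by norm_num
  obtain ⟨h1, h2⟩ := rk_big g hp (by norm_num) hg
  have hf : (Finset.univ.filter fun q : GolayPt => g.1 q = q).card = 2 := by omega
  obtain ⟨c, h3, h4⟩ := rk_of g hp hg hf
  omega

theorem rk23 (g : GM) (hg : orderOf g = 23) : rk ↥S23 g ≤ 22 := by
  have hp : Nat.Prime 23 := by norm_num
  obtain ⟨h1, h2⟩ := rk_big g hp (by norm_num) hg
  have hf : (Finset.univ.filter fun q : GolayPt => g.1 q = q).card = 1 := by omega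
  obtain ⟨c, h3, h4⟩ := rk_of g hp hg hf
  omega

/-- Ree's inequality here. -/
theorem ree23 (x y z : GM) (hxyz : x * y * z = 1) (hcl : Subgroup.closure ({x, y} : Set GM) = ⊤) :
    44 ≤ rk ↥S23 x + rk ↥S23 y + rk ↥S23 z := by
  haveI : Nonempty ↥S23 := ⟨⟨some 0, mem_S23.2 (by simp)⟩⟩
  have h := ree (α := ↥S23) x y z hxyz (by
    intro a b
    obtain ⟨g, hg⟩ := exists_map a b
    exact ⟨g, by rw [hcl]; trivial, hg⟩)
  rw [card_S23] at h
  omega

end Cfsg.Agent.Lib.M23Triples.Neg
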